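import Cfsg.Agent.H580.Cop
import Cfsg.Prelude.Def_LocalEven
import Cfsg.Prelude.Def_KGroupFacts

/-!
# A fixed-point-free automorphism: the constrained case

`Q` a finite `p`-group, `p` odd, `Inn(Q) ≤ A ≤ Aut(Q)`, `α` an automorphism of `Q` of prime order `r`, normalising `A`, without fixed
points on `Q` and on an `α`-invariant Sylow `p`-subgroup `P` of `A`, `r ∤ |A|`. Then `P` is normal in `A` (from control of strong
fusion (S1928) in the semidirect product).
-/

set_option autoImplicit false
open scoped Pointwise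

namespace Cfsg.Agent.H788.ConsGroup

open Cfsg

universe u

/-- The statement of S1928. -/
def ControlProp : Prop :=
  ∀ (G : Type u) [Group G] [Finite G] (r p : ℕ) [Fact r.Prime] [Fact p.Prime] (α : MulAut G), orderOf α = r →
    (Nat.card G).Coprime r → p ≠ 2 → (Nat.card {g : G // α g = g}).Coprime p → ∀ S : Sylow p G,
      ControlsStrongFusion p (S : Subgroup G)

/-- An element of the group generated by an automorphism with invariant subgroup. -/
theorem zpow_mem {G : Type*} [Group G] [Finite G] {α : MulAut G} {H : Subgroup G} (h : ∀ x ∈ H, α x ∈ H)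
    (a : Subgroup.zpowers α) : ∀ x ∈ H, (a : MulAut G) x ∈ H := by
  obtain ⟨a, ha⟩ := a
  have hfin : IsOfFinOrder α := isOfFinOrder_of_finite α
  obtain ⟨n, rfl⟩ : ∃ n : ℕ, α ^ n = a := by
    obtain ⟨n, hn⟩ := hfin.mem_powers_iff_mem_zpowers.2 ha
    exact ⟨n, hn⟩
  intro x hx
  change (α ^ n) x ∈ H
  clear ha
  induction n with
  | zero => simpa
  | succ n ih => rw [pow_succ', MulAut.mul_apply]; exact h _ ih

theorem zpow_fix {G : Type*} [Group G] [Finite G] {α : MulAut G} {g : G} (h : α g = g)
    (a : Subgroup.zpowers α) : (a : MulAut G) g = g := by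
  obtain ⟨a, ha⟩ := a
  have hfin : IsOfFinOrder α := isOfFinOrder_of_finite α
  obtain ⟨n, rfl⟩ : ∃ n : ℕ, α ^ n = a := by
    obtain ⟨n, hn⟩ := hfin.mem_powers_iff_mem_zpowers.2 ha
    exact ⟨n, hn⟩
  change (α ^ n) g = g
  clear ha
  induction n with
  | zero => simp
  | succ n ih => rw [pow_succ', MulAut.mul_apply, ih, h]

/-- If an automorphism of prime order `r` prime to `|G|` has no nontrivial fixed point on an invariant Sylow `p`-subgroup, its fixed
point group has order prime to `p`. -/
theorem coprime_fixed {G : Type*} [Group G] [Finite G] {p r : ℕ} [Fact p.Prime] {α : MulAut G}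
    (hα : orderOf α = r) (hcop : (Nat.card G).Coprime r) (S : Sylow p G) (hS : ∀ x ∈ (S : Subgroup G), α x ∈ (S : Subgroup G))
    (hfix : ∀ x ∈ (S : Subgroup G), α x = x → x = 1) : (Nat.card {g : G // α g = g}).Coprime p := by
  -- the subgroup of fixed points
  let C : Subgroup G :=
    { carrier := {g | α g = g}
      one_mem' := map_one α
      mul_mem' := by intro a b ha hb; change α (a * b) = a * b; rw [map_mul, ha, hb]
      inv_mem' := by intro a ha; change α a⁻¹ = a⁻¹; rw [map_inv, ha] }
  have hC : Nat.card {g : G // α g = g} = Nat.card C := rfl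
  rw [hC, Nat.coprime_comm, (Fact.out : p.Prime).coprime_iff_not_dvd]
  intro hd
  obtain ⟨⟨g, hg⟩, hgo⟩ := exists_prime_orderOf_dvd_card' p hd
  have hgα : α g = g := hg
  have hg1 : g ≠ 1 := by
    rintro rfl
    have : (⟨1, hg⟩ : C) = 1 := rfl
    rw [this, orderOf_one] at hgo
    exact (Fact.out : p.Prime).one_lt.ne hgo
  have hgp : g ^ p = 1 := by
    have := pow_orderOf_eq_one (⟨g, hg⟩ : C)
    rw [hgo] at this
    exact congrArg Subtype.val this
  let A : Subgroup (MulAut G) := Subgroup.zpowers α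
  have hcard : Nat.card A = r := by rw [← hα]; exact Nat.card_zpowers α
  have hcop' : (Nat.card A).Coprime (Nat.card G) := by rw [hcard]; exact hcop.symm
  have hsol : Group.IsSolvable A ∨ Group.IsSolvable G := Or.inl (by
    have : IsMulCommutative A := inferInstance
    infer_instance)
  have hU : IsPGroup p (Subgroup.zpowers g) := by
    apply IsPGroup.of_card (n := 1)
    rw [Nat.card_zpowers, pow_one]
    exact orderOf_eq_prime hgp hg1
  obtain ⟨P, hUP, hP⟩ := H580.Cop.exists_invariant_sylow_ge (A := A) (G := G) hcop' hsol p (Subgroup.zpowers g) hU (by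
    intro a x hx
    apply zpow_mem (H := Subgroup.zpowers g) (α := α) ?_ a x hx
    intro y hy
    obtain ⟨k, rfl⟩ := Subgroup.mem_zpowers_iff.1 hy
    rw [map_zpow, hgα]
    exact Subgroup.zpow_mem_zpowers g k)
  obtain ⟨c, hc, hcS⟩ := H580.Cop.invariant_sylow_conj (A := A) hcop' hsol P S hP (fun a x hx => zpow_mem hS a x hx)
  have hcα : α c = c := hc ⟨α, Subgroup.mem_zpowers α⟩
  have h1 : c * g * c⁻¹ ∈ (S : Subgroup G) := by
    rw [hcS, Subgroup.mem_pointwise_smul_iff_inv_smul_mem]
    have e : (MulAut.conj c)⁻¹ • (c * g * c⁻¹) = g := by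
      rw [← map_inv, MulAut.smul_def, MulAut.conj_apply]; group
    rw [e]
    exact hUP (Subgroup.mem_zpowers g)
  have h2 := hfix _ h1 (by rw [map_mul, map_mul, map_inv, hcα, hgα])
  apply hg1
  have : c * g * c⁻¹ = 1 := h2
  rwa [mul_inv_eq_one, mul_eq_left] at this

section

variable {Q : Type u} [Group Q] {p r : ℕ} {A : Subgroup (MulAut Q)} {α : MulAut Q}

/-- Conjugation by `α` as an automorphism of `A`. -/
noncomputable def conjA (hαA : ∀ a, a ∈ A ↔ α * a * α⁻¹ ∈ A) : A ≃* A where
  toFun a := ⟨α * a * α⁻¹, (hαA _).1 a.2⟩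
  invFun a := ⟨α⁻¹ * a * α, (hαA _).2 (by simp [mul_assoc])⟩
  left_inv a := Subtype.ext (by simp [mul_assoc])
  right_inv a := Subtype.ext (by simp [mul_assoc])
  map_mul' a b := Subtype.ext (by simp [mul_assoc])

/-- The automorphism of `Q ⋊ A` given by `α`. -/
noncomputable def hatα (hαA : ∀ a, a ∈ A ↔ α * a * α⁻¹ ∈ A) : MulAut (Q ⋊[A.subtype] A) :=
  SemidirectProduct.congr α (conjA hαA) (by
    intro g
    ext q
    change α ((g : MulAut Q) q) = (α * (g : MulAut Q) * α⁻¹) (α q)
    rw [MulAut.mul_apply, MulAut.mul_apply, MulAut.inv_apply_self])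

theorem hatα_left (hαA : ∀ a, a ∈ A ↔ α * a * α⁻¹ ∈ A) (x : Q ⋊[A.subtype] A) : (hatα hαA x).left = α x.left := rfl

theorem hatα_right (hαA : ∀ a, a ∈ A ↔ α * a * α⁻¹ ∈ A) (x : Q ⋊[A.subtype] A) :
    ((hatα hαA x).right : MulAut Q) = α * x.right * α⁻¹ := rfl

theorem hatα_pow (hαA : ∀ a, a ∈ A ↔ α * a * α⁻¹ ∈ A) (n : ℕ) (x : Q ⋊[A.subtype] A) :
    (((hatα hαA) ^ n) x).left = (α ^ n) x.left ∧ ((((hatα hαA) ^ n) x).right : MulAut Q) = α ^ n * x.right * (α ^ n)⁻¹ := by
  induction n with
  | zero => simp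
  | succ n ih =>
    rw [pow_succ', MulAut.mul_apply, hatα_left, hatα_right, ih.1, ih.2]
    constructor
    · rw [pow_succ', MulAut.mul_apply]
    · rw [pow_succ' α n]; group

theorem aux_conj {G : Type*} [Group G] {x a q : G} (h : a * q * a⁻¹ = x * q * x⁻¹) :
    (x⁻¹ * a) * q * (x⁻¹ * a)⁻¹ = q := by
  rw [mul_inv_rev, inv_inv]
  calc x⁻¹ * a * q * (a⁻¹ * x) = x⁻¹ * (a * q * a⁻¹) * x := by group
    _ = x⁻¹ * (x * q * x⁻¹) * x := by rw [h]
    _ = q := by group

theorem aux_right {a : A} {q : Q} : (SemidirectProduct.inr a * SemidirectProduct.inl q * (SemidirectProduct.inr a)⁻¹ :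
    Q ⋊[A.subtype] A).right = 1 := by simp

theorem aux_inr {g n : A} : (SemidirectProduct.inr g * SemidirectProduct.inr n * (SemidirectProduct.inr g)⁻¹ :
    Q ⋊[A.subtype] A) = SemidirectProduct.inr (g * n * g⁻¹) := by simp

theorem aux_cent {y : Q ⋊[A.subtype] A} (hy : ∀ q : Q, y * SemidirectProduct.inl q * y⁻¹ = SemidirectProduct.inl q) :
    (y.right : MulAut Q) = MulAut.conj (y.left⁻¹) := by
  ext q
  have h := congrArg SemidirectProduct.left (mul_inv_eq_iff_eq_mul.1 (hy q))
  simp only [SemidirectProduct.mul_left, SemidirectProduct.left_inl, SemidirectProduct.right_inl, map_one,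
    MulAut.one_apply] at h
  rw [MulAut.conj_apply, inv_inv, mul_assoc, ← h]
  change (y.right : MulAut Q) q = _
  rw [Subgroup.coe_subtype]
  group

/-- **The constrained case.** -/
theorem normal_of_fixed_free [Finite Q] (h1928 : ControlProp.{u}) [Fact p.Prime] (hr : r.Prime) (hp : p ≠ 2) (hQ : IsPGroup p Q)
    (hα : α ^ r = 1) (hfix : ∀ q, α q = q → q = 1) (hαA : ∀ a, a ∈ A ↔ α * a * α⁻¹ ∈ A)
    (hrA : ¬ r ∣ Nat.card A) (P : Sylow p A) (hPα : ∀ a ∈ (P : Subgroup A), conjA hαA a ∈ (P : Subgroup A))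
    (hPfix : ∀ a ∈ (P : Subgroup A), conjA hαA a = a → a = 1) : (P : Subgroup A).Normal := by
  classical
  -- trivial case
  by_cases hQ1 : Subsingleton Q
  · have : Subsingleton A := by
      refine ⟨fun a b => Subtype.ext ?_⟩
      ext q
      exact Subsingleton.elim _ _
    exact ⟨fun n hn g => by rwa [Subsingleton.elim (g * n * g⁻¹) n]⟩
  have hα1 : α ≠ 1 := by
    rintro rfl
    exact hQ1 ⟨fun a b => (hfix a rfl).trans (hfix b rfl).symm⟩
  have hαo : orderOf α = r := orderOf_eq_prime hα hα1 (hp := ⟨hr⟩)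
  have : Fact r.Prime := ⟨hr⟩
  have hnt : Nontrivial Q := not_subsingleton_iff_nontrivial.1 hQ1
  -- `r ≠ p`
  have hrQ : ¬ r ∣ Nat.card Q := by
    intro hd
    obtain ⟨n, hn⟩ := IsPGroup.iff_card.1 hQ
    have hrp : r = p := by
      rw [hn] at hd
      exact (Nat.prime_dvd_prime_iff_eq hr Fact.out).1 (hr.dvd_of_dvd_pow hd)
    -- an automorphism of order `p` of a `p`-group has fixed points
    have hn0 : n ≠ 0 := by
      rintro rfl
      rw [pow_zero] at hn
      have := Nat.card_eq_one_iff_unique.1 hn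
      exact hQ1 this.1
    have : Fintype Q := Fintype.ofFinite Q
    have : Fintype (Function.fixedPoints α) := Fintype.ofFinite _
    have hmod : Nat.card Q ≡ Nat.card (Function.fixedPoints α) [MOD p] := by
      have h1 := IsPGroup.card_modEq_card_fixedPoints (p := p) (G := Subgroup.zpowers α)
        (IsPGroup.of_card (n := 1) (by rw [Nat.card_zpowers, hαo, hrp, pow_one])) Q
      refine h1.trans ?_
      have e : (MulAction.fixedPoints (Subgroup.zpowers α) Q) = Function.fixedPoints α := by
        ext q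
        constructor
        · intro hq; exact hq ⟨α, Subgroup.mem_zpowers α⟩
        · intro hq a; exact zpow_fix hq a
      rw [e]
    have hone : Nat.card (Function.fixedPoints α) = 1 := by
      rw [Nat.card_eq_one_iff_unique]
      refine ⟨⟨fun a b => Subtype.ext ((hfix _ a.2).trans (hfix _ b.2).symm)⟩, ⟨⟨1, map_one α⟩⟩⟩
    rw [hone, hn] at hmod
    have : p ∣ 1 := (Nat.modEq_zero_iff_dvd.1 (hmod.symm.trans ((Nat.modEq_zero_iff_dvd).2 (dvd_pow_self p hn0))))
    exact (Fact.out : p.Prime).one_lt.ne' (Nat.dvd_one.1 this)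
  -- the semidirect product
  let G := Q ⋊[A.subtype] A
  have hfinG : Finite G := by
    refine Finite.of_injective (fun x : G => (x.left, x.right)) ?_
    intro x y h
    simp only [Prod.mk.injEq] at h
    exact SemidirectProduct.ext h.1 h.2
  have hcardG : Nat.card G = Nat.card Q * Nat.card A := SemidirectProduct.card
  have hcop : (Nat.card G).Coprime r := by
    rw [hcardG, Nat.coprime_comm]
    exact Nat.Coprime.mul_right ((hr.coprime_iff_not_dvd).2 hrQ) ((hr.coprime_iff_not_dvd).2 hrA)
  set β : MulAut G := hatα hαA with hβ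
  have hβr : β ^ r = 1 := by
    refine MulEquiv.ext fun x => ?_
    have := hatα_pow hαA r x
    rw [hα] at this
    apply SemidirectProduct.ext
    · exact this.1
    · exact Subtype.ext (by rw [hβ, this.2]; simp)
  have hβ1 : β ≠ 1 := by
    intro e
    apply hα1
    ext q
    have := congrArg (fun f : MulAut G => (f (SemidirectProduct.inl q)).left) e
    exact this
  have hβo : orderOf β = r := orderOf_eq_prime hβr hβ1
  -- the Sylow subgroup `Q P`
  let P₀ : Subgroup G := (P : Subgroup A).comap SemidirectProduct.rightHom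
  have hP₀mem : ∀ x : G, x ∈ P₀ ↔ x.right ∈ (P : Subgroup A) := fun x => Iff.rfl
  have hP₀card : Nat.card P₀ = Nat.card Q * Nat.card P := by
    let e : P₀ ≃ Q × (P : Subgroup A) :=
      { toFun := fun x => (x.1.left, ⟨x.1.right, x.2⟩)
        invFun := fun y => ⟨⟨y.1, y.2⟩, y.2.2⟩
        left_inv := fun x => rfl
        right_inv := fun y => rfl }
    rw [Nat.card_congr e, Nat.card_prod]
  have hP₀p : IsPGroup p P₀ := by
    obtain ⟨n, hn⟩ := IsPGroup.iff_card.1 hQ
    obtain ⟨m, hm⟩ := IsPGroup.iff_card.1 P.isPGroup'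
    exact IsPGroup.of_card (n := n + m) (by rw [hP₀card, hn, hm, pow_add])
  have hP₀i : ¬ p ∣ P₀.index := by
    have h1 : P₀.index = (P : Subgroup A).index :=
      Subgroup.index_comap_of_surjective _ (fun a => ⟨SemidirectProduct.inr a, rfl⟩)
    rw [h1]
    exact P.not_dvd_index
  let S : Sylow p G := hP₀p.toSylow hP₀i
  have hSP : (S : Subgroup G) = P₀ := rfl
  have hcf := coprime_fixed hβo hcop S (by
    intro x hx
    exact hPα _ hx) (by
    intro x hx hxe
    have h1 : α x.left = x.left := congrArg SemidirectProduct.left hxe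
    have h2 : conjA hαA x.right = x.right := congrArg SemidirectProduct.right hxe
    exact SemidirectProduct.ext (hfix _ h1) (hPfix _ hx h2))
  obtain ⟨T, hST, hT⟩ := h1928 G r p β hβo hcop hp hcf S
  have hTS : (T : Subgroup G) = P₀ := by
    rw [← hSP]
    exact S.3 T.2 hST
  have hPn : ∀ a : A, (SemidirectProduct.inr a : G) ∈ Subgroup.normalizer (P₀ : Set G) := by
    intro a
    have hsub : (Set.range (SemidirectProduct.inl : Q →* G) : Set G) ⊆ (T : Subgroup G) := by
      rintro _ ⟨q, rfl⟩
      rw [hTS]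
      exact (P : Subgroup A).one_mem
    obtain ⟨-, hc⟩ := hT _ hsub
    obtain ⟨x, hx, hxa⟩ := hc (SemidirectProduct.inr a) (by
      rintro _ ⟨_, ⟨q, rfl⟩, rfl⟩
      rw [SetLike.mem_coe, hTS]
      change (SemidirectProduct.inr a * SemidirectProduct.inl q * (SemidirectProduct.inr a)⁻¹ : Q ⋊[A.subtype] A).right ∈
        (P : Subgroup A)
      rw [aux_right]
      exact (P : Subgroup A).one_mem)
    -- `y = x⁻¹ a` centralises `Q`
    set y : G := x⁻¹ * SemidirectProduct.inr a with hy
    have hyc : ∀ q : Q, y * SemidirectProduct.inl q * y⁻¹ = SemidirectProduct.inl q := fun q =>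
      aux_conj (hxa _ ⟨q, rfl⟩)
    have hyr : (y.right : MulAut Q) = MulAut.conj (y.left⁻¹) := aux_cent hyc
    have hyP : y.right ∈ (P : Subgroup A) := by
      -- `Inn(Q)` is a normal `p`-subgroup of `A`
      let I : Subgroup A := (Inn Q).subgroupOf A
      have hIn : I.Normal := (innNormal Q).subgroupOf A
      have hIp : IsPGroup p I := by
        have h1 : IsPGroup p (Inn Q) := by
          have := hQ.to_quotient (Subgroup.center Q)
          intro g
          obtain ⟨_, q, rfl⟩ := g
          obtain ⟨k, hk⟩ := hQ q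
          refine ⟨k, Subtype.ext ?_⟩
          change (MulAut.conj q) ^ p ^ k = 1
          rw [← map_pow, hk, map_one]
        exact h1.comap_of_injective A.subtype A.subtype_injective
      have hIP : I ≤ (P : Subgroup A) := by
        have h2 : IsPGroup p ((P : Subgroup A) ⊔ I : Subgroup A) := P.2.to_sup_of_normal_right hIp
        have h3 := P.3 h2 le_sup_left
        rw [← h3]
        exact le_sup_right
      apply hIP
      exact ⟨y.left⁻¹, hyr.symm⟩
    have hyN : y ∈ Subgroup.normalizer (P₀ : Set G) := Subgroup.le_normalizer hyP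
    have hxN : x ∈ Subgroup.normalizer (P₀ : Set G) := hx
    have : (SemidirectProduct.inr a : G) = x * y := by rw [hy, mul_inv_cancel_left]
    rw [this]
    exact mul_mem hxN hyN
  refine ⟨fun n hn g => ?_⟩
  have h := (Subgroup.mem_normalizer_iff.1 (hPn g) (SemidirectProduct.inr n)).1 hn
  change (SemidirectProduct.inr g * SemidirectProduct.inr n * (SemidirectProduct.inr g)⁻¹ : Q ⋊[A.subtype] A) ∈ P₀ at h
  rw [aux_inr] at h
  exact h

end

end Cfsg.Agent.H788.ConsGroup
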